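import Mathlib
import Cfsg.Agent.Lib.Helper73.Disconn2
import Cfsg.Agent.Lib.Helper73.ConjCover

set_option autoImplicit false

/-! Groups whose two largest class sizes `m > n > 1` are coprime: definitions and basic facts. -/

namespace Cfsg.Agent.Lib.Helper67.CopCls

open Cfsg.Agent.Lib.Helper73

variable {G : Type*} [Group G]

/-- the class size of `g`. -/
noncomputable abbrev cs (g : G) : ℕ := (Subgroup.centralizer ({g} : Set G)).index

/-- the hypotheses. -/
structure Ctx (G : Type*) [Group G] (m n : ℕ) : Prop where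
  hmn : n < m
  hn : 1 < n
  hcop : m.Coprime n
  htop : ∀ z : G, cs z ≤ m
  hsecond : ∀ z : G, cs z < m → cs z ≤ n
  exN : ∃ x : G, cs x = n
  exM : ∃ y : G, cs y = m

/-- the numbers not dividing `m`. -/
def Sm (m : ℕ) : Set ℕ := {p | ¬ p ∣ m}

theorem piNum_Sm_iff {m k : ℕ} : PiNum (Sm m) k ↔ k.Coprime m := by
  constructor
  · intro h
    exact Nat.coprime_of_dvd (fun p hp hpk hpm => h p hp hpk hpm)
  · intro h p hp hpk hpm
    exact hp.one_lt.ne' (Nat.eq_one_of_dvd_coprimes h hpk hpm)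

theorem piNum_Smc_iff {m k : ℕ} : PiNum (Sm m)ᶜ k ↔ ∀ p : ℕ, p.Prime → p ∣ k → p ∣ m := by
  constructor
  · intro h p hp hpk
    have := h p hp hpk
    simpa [Sm] using this
  · intro h p hp hpk
    simpa [Sm] using h p hp hpk

theorem piNum_Smc_self (m : ℕ) : PiNum (Sm m)ᶜ m := piNum_Smc_iff.mpr (fun _ _ h => h)

theorem piNum_Smc_of_dvd {m k : ℕ} (h : k ∣ m) : PiNum (Sm m)ᶜ k := (piNum_Smc_self m).of_dvd h

theorem coprime_of_Smc {m n k : ℕ} (hcop : m.Coprime n) (h : PiNum (Sm m)ᶜ k) : k.Coprime n :=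
  Nat.coprime_of_dvd (fun p hp hpk hpn =>
    hp.one_lt.ne' (Nat.eq_one_of_dvd_coprimes hcop (piNum_Smc_iff.mp h p hp hpk) hpn))

theorem coprime_of_Sm_Smc {m j k : ℕ} (hj : j.Coprime m) (h : PiNum (Sm m)ᶜ k) : j.Coprime k :=
  (piNum_Sm_iff.mpr hj).coprime h

theorem cs_pos [Finite G] (g : G) : 0 < cs g := Nat.pos_of_ne_zero Subgroup.index_ne_zero_of_finite

/-- if `a`, `d` have coprime class sizes and `a d'` has the class size of `d'` for all conjugates
`d'` of `d`, then the commutators of `a` stabilise the class of `d` by translation. -/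
theorem translate_mem [Finite G] (a d : G) (hcop : (cs a).Coprime (cs d))
    (hmul : ∀ d', IsConj d d' → cs (a * d') = cs d') (g : G) :
    (g * a * g⁻¹)⁻¹ * a ∈ transStab d := by
  apply mem_transStab_of_forall
  intro x hx
  have hcs : cs x = cs d := cs_eq_of_isConj hx
  have hcop' : (cs a).Coprime (cs x) := by rw [hcs]; exact hcop
  obtain ⟨h, hh⟩ := exists_conj_eq_translate a x hcop' (hmul x hx) g
  rw [← hh]
  exact hx.trans (isConj_iff.mpr ⟨h, rfl⟩)

theorem orderOf_dvd_of_mem_transStab [Finite G] (d t : G) (ht : t ∈ transStab d) :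
    orderOf t ∣ cs d := by
  have := orderOf_dvd_natCard (⟨t, ht⟩ : transStab d)
  rw [Subgroup.orderOf_mk] at this
  exact this.trans (card_transStab_dvd d)

/-- if `g a g⁻¹ = a t⁻¹` with `t` commuting with `a` of order coprime to that of `a`, `t = 1`. -/
theorem eq_one_of_conj_translate (a g t : G) (ht : t = (g * a * g⁻¹)⁻¹ * a) (hta : t * a = a * t)
    (hcop : (orderOf t).Coprime (orderOf a)) : t = 1 := by
  have hta' : Commute t a := hta
  have e1 : g * a * g⁻¹ = a * t⁻¹ := by rw [ht]; group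
  have e2 : (a * t⁻¹) ^ orderOf a = 1 := by
    rw [← e1, conj_pow, pow_orderOf_eq_one]; group
  rw [(hta'.symm.inv_right).mul_pow, pow_orderOf_eq_one, one_mul, inv_pow, inv_eq_one] at e2
  have d1 : orderOf t ∣ orderOf a := orderOf_dvd_of_pow_eq_one e2
  have h1 : orderOf t = 1 := Nat.eq_one_of_dvd_coprimes hcop dvd_rfl d1
  exact orderOf_eq_one_iff.mp h1

theorem mem_center_of_forall_translate (a : G) (h : ∀ g : G, (g * a * g⁻¹)⁻¹ * a = 1) :
    a ∈ Subgroup.center G := by
  rw [Subgroup.mem_center_iff]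
  intro g
  have h2 : g * a * g⁻¹ = a := inv_mul_eq_one.mp (h g)
  calc g * a = g * a * g⁻¹ * g := by group
    _ = a * g := by rw [h2]

/-- **GEN**. -/
theorem gen_central [Finite G] (a d : G) (hcop : (cs a).Coprime (cs d))
    (hmul : ∀ d', IsConj d d' → cs (a * d') = cs d') (ho : (orderOf a).Coprime (cs d)) :
    a ∈ Subgroup.center G := by
  apply mem_center_of_forall_translate
  intro g
  have h1 := translate_mem a d hcop hmul g
  have h2 : transStab d ≤ Subgroup.centralizer ({a} : Set G) :=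
    normal_le_cn_of_coprime _ a
      (Nat.Coprime.coprime_dvd_left (card_transStab_dvd d) hcop.symm)
  exact eq_one_of_conj_translate a g _ rfl (mem_cn.mp (h2 h1))
    (Nat.Coprime.coprime_dvd_left (orderOf_dvd_of_mem_transStab d _ h1) ho.symm)

namespace Ctx

variable {m n : ℕ} [Finite G]

/-- multiplying an element of class size `m` by one of class size prime to `m`. -/
theorem cs_mul_top (c : Ctx G m n) (a y : G) (ha : (cs a).Coprime m) (hy : cs y = m) :
    cs (a * y) = m := by
  apply le_antisymm (c.htop _)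
  have := cs_le_cs_mul a y (by rw [show (Subgroup.centralizer ({y} : Set G)).index = m from hy]; exact ha)
  rwa [show (Subgroup.centralizer ({y} : Set G)).index = m from hy] at this

/-- a multiple of `n` among the class sizes is `n`. -/
theorem cs_eq_n_of_dvd (c : Ctx G m n) (g : G) (h : n ∣ cs g) : cs g = n := by
  have h1 : cs g ≠ m := by
    intro h2
    rw [h2] at h
    exact c.hn.ne' (Nat.eq_one_of_dvd_coprimes c.hcop h dvd_rfl)
  exact le_antisymm (c.hsecond g (lt_of_le_of_ne (c.htop g) h1)) (Nat.le_of_dvd (cs_pos g) h)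

/-- a multiple of `m` among the class sizes is `m`. -/
theorem cs_eq_m_of_dvd (c : Ctx G m n) (g : G) (h : m ∣ cs g) : cs g = m :=
  le_antisymm (c.htop g) (Nat.le_of_dvd (cs_pos g) h)

/-- the normal subgroup `K`. -/
theorem K_le_transStab (c : Ctx G m n) (y : G) (hy : cs y = m) : NN G (Sm m) ≤ transStab y := by
  apply DCtx.NN_le_transStab y
  · rw [show (Subgroup.centralizer ({y} : Set G)).index = m from hy]; exact piNum_Smc_self m
  · intro a x ha hx
    have hx' : cs x = m := (cs_eq_of_isConj hx).trans hy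
    rw [show (Subgroup.centralizer ({x} : Set G)).index = m from hx']
    exact c.cs_mul_top a x (piNum_Sm_iff.mp ha) hx'

theorem card_K_dvd (c : Ctx G m n) : Nat.card (NN G (Sm m)) ∣ m := by
  obtain ⟨y, hy⟩ := c.exM
  have := (Subgroup.card_dvd_of_le (c.K_le_transStab y hy)).trans (card_transStab_dvd y)
  rwa [show (Subgroup.centralizer ({y} : Set G)).index = m from hy] at this

theorem orderOf_K_dvd (c : Ctx G m n) (k : G) (hk : k ∈ NN G (Sm m)) : orderOf k ∣ m := by
  have := orderOf_dvd_natCard (⟨k, hk⟩ : NN G (Sm m))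
  rw [Subgroup.orderOf_mk] at this
  exact this.trans c.card_K_dvd

omit [Finite G] in
theorem mem_K (a : G) (ha : (cs a).Coprime m) (g : G) : (g * a * g⁻¹)⁻¹ * a ∈ NN G (Sm m) :=
  mem_NN (piNum_Sm_iff.mpr ha) g

theorem K_le_cn (c : Ctx G m n) (a : G) (ha : (cs a).Coprime m) :
    NN G (Sm m) ≤ Subgroup.centralizer ({a} : Set G) :=
  normal_le_cn_of_coprime _ a (Nat.Coprime.coprime_dvd_left c.card_K_dvd ha.symm)

theorem K_comm (c : Ctx G m n) (k k' : G) (hk : k ∈ NN G (Sm m)) (hk' : k' ∈ NN G (Sm m)) :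
    k * k' = k' * k := by
  have h1 : NN G (Sm m) ≤ Subgroup.centralizer (TT G (Sm m)) := by
    intro u hu
    rw [Subgroup.mem_centralizer_iff]
    rintro _ ⟨a, g, ha, rfl⟩
    have ha' := piNum_Sm_iff.mp ha
    have e1 : u * a = a * u := mem_cn.mp (c.K_le_cn a ha' hu)
    have e2 : u * (g * a * g⁻¹) = (g * a * g⁻¹) * u :=
      mem_cn.mp (c.K_le_cn (g * a * g⁻¹) (by
        rw [show cs (g * a * g⁻¹) = cs a from cs_conj g a]; exact ha') hu)
    have e3 : u * (g * a * g⁻¹)⁻¹ = (g * a * g⁻¹)⁻¹ * u :=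
      ((show Commute u (g * a * g⁻¹) from e2).inv_right).eq
    rw [mul_assoc, ← e1, ← mul_assoc, ← e3, mul_assoc]
  have h2 : k' ∈ Subgroup.centralizer ((NN G (Sm m) : Subgroup G) : Set G) := by
    rw [NN, Subgroup.centralizer_closure]
    exact h1 hk'
  exact (Subgroup.mem_centralizer_iff.mp h2) k hk

/-- **L2**: an element of order and class size prime to `m` is central. -/
theorem L2 (c : Ctx G m n) (a : G) (ho : (orderOf a).Coprime m) (ha : (cs a).Coprime m) :
    a ∈ Subgroup.center G := by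
  obtain ⟨y, hy⟩ := c.exM
  apply gen_central a y (by rw [hy]; exact ha) _ (by rw [hy]; exact ho)
  intro d' hd'
  have hx' : cs d' = m := (cs_eq_of_isConj hd').trans hy
  rw [hx']
  exact c.cs_mul_top a d' ha hx'

/-- an element of class size `n` may be replaced by its `m`-part. -/
theorem exists_beta_rep (c : Ctx G m n) (x' : G) (hx' : cs x' = n) :
    ∃ x₂ ∈ Subgroup.zpowers x', PiNum (Sm m)ᶜ (orderOf x₂) ∧
      Subgroup.centralizer ({x₂} : Set G) = Subgroup.centralizer ({x'} : Set G) := by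
  obtain ⟨x₁, x₂, h1, h2, hxx, ho1, ho2⟩ := exists_pi_parts (Sm m) x'
  have d1 : cs x₁ ∣ n := by
    rw [← hx']; exact Subgroup.index_dvd_of_le (cn_le_cn_of_mem_zpowers x' x₁ h1)
  have hz : x₁ ∈ Subgroup.center G :=
    c.L2 x₁ (piNum_Sm_iff.mp ho1) (Nat.Coprime.coprime_dvd_left d1 c.hcop.symm)
  refine ⟨x₂, h2, ho2, le_antisymm ?_ (cn_le_cn_of_mem_zpowers x' x₂ h2)⟩
  intro g hg
  have e : g * x₂ = x₂ * g := mem_cn.mp hg
  apply mem_cn.mpr
  rw [hxx, ← mul_assoc, (Subgroup.mem_center_iff.mp hz) g, mul_assoc, e, mul_assoc]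

/-- **L3**: elements of order prime to `m` commuting with an element of class size `n` are
central. -/
theorem L3 (c : Ctx G m n) (x' a : G) (hx' : cs x' = n) (ho : (orderOf a).Coprime m)
    (hcomm : a * x' = x' * a) : a ∈ Subgroup.center G := by
  obtain ⟨x₂, h2, ho2, hC⟩ := c.exists_beta_rep x' hx'
  have hcomm2 : Commute a x₂ := by
    have : a ∈ Subgroup.centralizer ({x₂} : Set G) := by rw [hC]; exact mem_cn.mpr hcomm
    exact mem_cn.mp this
  obtain ⟨k1, k2⟩ := cn_mul_le_of_coprime a x₂ hcomm2 (coprime_of_Sm_Smc ho ho2)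
  have d1 : n ∣ cs (a * x₂) := by
    rw [← hx']
    apply Subgroup.index_dvd_of_le
    rw [← hC]; exact k2
  have e1 : cs (a * x₂) = n := c.cs_eq_n_of_dvd _ d1
  have d2 : cs a ∣ n := by
    rw [← e1]; exact Subgroup.index_dvd_of_le k1
  exact c.L2 a ho (Nat.Coprime.coprime_dvd_left d2 c.hcop.symm)

end Ctx

end Cfsg.Agent.Lib.Helper67.CopCls
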