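import Mathlib
import Cfsg.Agent.Lib.Helper67.CopCls
import Cfsg.Agent.Lib.Helper1.Fpf2
import Cfsg.Prelude.Def_Solvable

set_option autoImplicit false

/-! Final step for the groups whose two largest class sizes are coprime. -/

namespace Cfsg.Agent.Lib.Helper67.CopCls

open Cfsg.Agent.Lib.Helper73

variable {G : Type*} [Group G] [Finite G]

/-- The Frobenius structure of `G / Z(G)` in the disconnected situation, for a chosen `d ∉ MM`. -/
theorem frob_data {S : Set ℕ} (c : DCtx G S) (d : G) (hdM : d ∉ MM G S) :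
    Cfsg.IsFrobeniusComplement
      ((Subgroup.centralizer ({d} : Set G)).map (QuotientGroup.mk' (Subgroup.center G))) ∧
    Cfsg.frobeniusKernel
      ((Subgroup.centralizer ({d} : Set G)).map (QuotientGroup.mk' (Subgroup.center G))) =
      ((MM G S).map (QuotientGroup.mk' (Subgroup.center G)) : Set (G ⧸ Subgroup.center G)) ∧
    (∀ h ∈ (Subgroup.centralizer ({d} : Set G)).map (QuotientGroup.mk' (Subgroup.center G)),
      ∀ k ∈ (MM G S).map (QuotientGroup.mk' (Subgroup.center G)),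
        h ≠ 1 → h * k = k * h → k = 1) ∧
    (∀ h ∈ (Subgroup.centralizer ({d} : Set G)).map (QuotientGroup.mk' (Subgroup.center G)),
      ∀ h' ∈ (Subgroup.centralizer ({d} : Set G)).map (QuotientGroup.mk' (Subgroup.center G)),
        h * h' = h' * h) ∧
    (MM G S).map (QuotientGroup.mk' (Subgroup.center G)) ≠ ⊥ := by
  obtain ⟨a, haA, hac⟩ := c.exA
  have hdc : d ∉ Subgroup.center G := fun h => hdM (center_le_MM S h)
  let π := QuotientGroup.mk' (Subgroup.center G)
  have hπ1 : ∀ x : G, π x = 1 ↔ x ∈ Subgroup.center G := fun x => QuotientGroup.eq_one_iff x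
  have hπe : ∀ x y : G, π x = π y ↔ x⁻¹ * y ∈ Subgroup.center G := fun x y => QuotientGroup.eq
  let K : Subgroup (G ⧸ Subgroup.center G) := (MM G S).map π
  let H : Subgroup (G ⧸ Subgroup.center G) := (Subgroup.centralizer ({d} : Set G)).map π
  have hKn : K.Normal := Subgroup.Normal.map (MM_normal S) π (QuotientGroup.mk'_surjective _)
  have hdisj : ∀ x, x ∈ K → x ∈ H → x = 1 := by
    rintro _ ⟨m, hm, rfl⟩ ⟨y, hy, hym⟩
    have h1 : y⁻¹ * m ∈ Subgroup.center G := (hπe y m).mp hym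
    have h2 : m ∈ Subgroup.centralizer ({d} : Set G) := by
      have := Subgroup.mul_mem _ hy (center_le_cn d h1)
      rwa [mul_inv_cancel_left] at this
    exact (hπ1 m).mpr (c.mem_center_of_comm d m hdM hm (mem_cn.mp h2))
  have hgen : ∀ g, ∃ k ∈ K, ∃ h ∈ H, g = k * h := by
    intro g
    obtain ⟨g, rfl⟩ := QuotientGroup.mk'_surjective _ g
    obtain ⟨m, hm, y, hy, rfl⟩ := c.exists_mul d hdM g
    exact ⟨π m, ⟨m, hm, rfl⟩, π y, ⟨y, hy, rfl⟩, map_mul π m y⟩
  have hH : H ≠ ⊥ := by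
    intro h
    have h1 : π d ∈ H := ⟨d, mem_cn.mpr rfl, rfl⟩
    rw [h, Subgroup.mem_bot] at h1
    exact hdc ((hπ1 d).mp h1)
  have hK : K ≠ ⊥ := by
    intro h
    have h1 : π a ∈ K := ⟨a, mem_MM haA, rfl⟩
    rw [h, Subgroup.mem_bot] at h1
    exact hac ((hπ1 a).mp h1)
  have hCM : ∀ x ∈ Subgroup.centralizer ({d} : Set G), x ∉ Subgroup.center G → x ∉ MM G S :=
    fun x hx hxc hxM => hxc (c.mem_center_of_comm d x hdM hxM (mem_cn.mp hx))
  have hfpf : ∀ h ∈ H, ∀ k ∈ K, h ≠ 1 → h * k = k * h → k = 1 := by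
    rintro _ ⟨x, hx, rfl⟩ _ ⟨m, hm, rfl⟩ hne hcomm
    have hxc : x ∉ Subgroup.center G := fun h => hne ((hπ1 x).mpr h)
    have hxM := hCM x hx hxc
    rw [← map_mul, ← map_mul, hπe] at hcomm
    have hA : PiNum S (Subgroup.centralizer ({x⁻¹ * m * x⁻¹⁻¹} : Set G)).index := by
      rw [cs_conj]; exact c.A_of_mem_MM m hm
    have h1 := mem_NN hA x
    have e : (x * (x⁻¹ * m * x⁻¹⁻¹) * x⁻¹)⁻¹ * (x⁻¹ * m * x⁻¹⁻¹) = (x * m)⁻¹ * (m * x) := by group
    rw [e] at h1
    have h2 := c.NN_inf_center _ h1 hcomm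
    have h3 : x * m = m * x := inv_mul_eq_one.mp h2
    exact (hπ1 m).mpr (c.mem_center_of_comm x m hxM hm h3.symm)
  obtain ⟨hF, hker⟩ := frob_of_fpf K H hdisj hgen hH hK hfpf
  refine ⟨hF, hker, hfpf, ?_, hK⟩
  rintro _ ⟨x, hx, rfl⟩ _ ⟨y, hy, rfl⟩
  change π x * π y = π y * π x
  rw [← map_mul, ← map_mul, hπe]
  apply c.mem_center_of_comm d _ hdM (c.comm_mem_MM x y)
  apply mem_cn.mp
  exact Subgroup.mul_mem _ (Subgroup.inv_mem _ (Subgroup.mul_mem _ hx hy))
    (Subgroup.mul_mem _ hy hx)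

/-- An abelian subgroup `H` acting fixed-point-freely on an abelian normal subgroup `K ≠ 1` is
cyclic. -/
theorem isCyclic_of_fpf {Q : Type*} [Group Q] [Finite Q] (K H : Subgroup Q) [K.Normal]
    (hK : K ≠ ⊥) (hKc : ∀ k ∈ K, ∀ k' ∈ K, k * k' = k' * k)
    (hHc : ∀ h ∈ H, ∀ h' ∈ H, h * h' = h' * h)
    (hfpf : ∀ h ∈ H, ∀ k ∈ K, h ≠ 1 → h * k = k * h → k = 1) : IsCyclic H := by
  letI : CommGroup K :=
    { (inferInstance : Group K) with
      mul_comm := fun a b => Subtype.ext (hKc a a.2 b b.2) }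
  haveI : Nontrivial K := (Subgroup.nontrivial_iff_ne_bot K).mpr hK
  let φ : H →* MulAut K := (MulAut.conjNormal (H := K)).comp H.subtype
  apply Cfsg.Agent.Lib.Helper1.fpf_isCyclic_of_comm φ
  · intro a ha v hv
    have h1 : ((φ a v : K) : Q) = (a : Q) * v * (a : Q)⁻¹ := rfl
    rw [hv] at h1
    have h2 : (a : Q) * v = v * a := by
      calc (a : Q) * v = (a : Q) * v * (a : Q)⁻¹ * a := by group
        _ = v * a := by rw [← h1]
    have h3 := hfpf a a.2 v v.2 (fun h => ha (Subtype.ext h)) h2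
    exact Subtype.ext h3
  · intro a b
    exact Subtype.ext (hHc a a.2 b b.2)

variable {m n : ℕ}

/-- the divisors of `n`. -/
def Sn (n : ℕ) : Set ℕ := {p | p ∣ n}

theorem dctx_of_trichotomy (c : Ctx G m n) (h : ∀ g : G, cs g = 1 ∨ cs g = n ∨ cs g = m) :
    DCtx G (Sn n) := by
  have hPn : PiNum (Sn n) n := fun p _ hpn => hpn
  have hPm : PiNum (Sn n)ᶜ m := fun p hp hpm hpn =>
    hp.one_lt.ne' (Nat.eq_one_of_dvd_coprimes c.hcop hpm hpn)
  obtain ⟨x, hx⟩ := c.exN
  obtain ⟨y, hy⟩ := c.exM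
  refine ⟨?_, ⟨x, ?_, ?_⟩, ⟨y, ?_, ?_, ?_⟩⟩
  · intro g
    rcases h g with h1 | h1 | h1
    · left
      rw [show (Subgroup.centralizer ({g} : Set G)).index = 1 from h1]
      intro p hp hp1
      exact absurd (Nat.dvd_one.mp hp1) hp.one_lt.ne'
    · left
      rw [show (Subgroup.centralizer ({g} : Set G)).index = n from h1]; exact hPn
    · right
      rw [show (Subgroup.centralizer ({g} : Set G)).index = m from h1]; exact hPm
  · rw [show (Subgroup.centralizer ({x} : Set G)).index = n from hx]; exact hPn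
  · intro hc
    have := cs_eq_one_of_mem_center hc
    rw [show (Subgroup.centralizer ({x} : Set G)).index = n from hx] at this
    exact c.hn.ne' this
  · rw [show (Subgroup.centralizer ({y} : Set G)).index = m from hy]; exact hPm
  · intro hc
    have := cs_eq_one_of_mem_center hc
    rw [show (Subgroup.centralizer ({y} : Set G)).index = m from hy] at this
    have := c.hn.trans c.hmn
    omega
  · intro g
    rw [show (Subgroup.centralizer ({y} : Set G)).index = m from hy]
    exact c.htop g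

theorem final (c : Ctx G m n) (h : ∀ g : G, cs g = 1 ∨ cs g = n ∨ cs g = m)
    (x y : G) (hx : cs x = n) (hy : cs y = m) :
    IsMulCommutative (Subgroup.centralizer ({x} : Set G)) ∧
    IsMulCommutative (Subgroup.centralizer ({y} : Set G)) ∧
    Cfsg.IsFrobeniusComplement
      ((Subgroup.centralizer ({y} : Set G)).map (QuotientGroup.mk' (Subgroup.center G))) ∧
    Cfsg.frobeniusKernel
      ((Subgroup.centralizer ({y} : Set G)).map (QuotientGroup.mk' (Subgroup.center G))) =
      ((Subgroup.centralizer ({x} : Set G)).map (QuotientGroup.mk' (Subgroup.center G)) :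
        Set (G ⧸ Subgroup.center G)) := by
  have d := dctx_of_trichotomy c h
  have hPn : PiNum (Sn n) n := fun p _ hpn => hpn
  have hPm : PiNum (Sn n)ᶜ m := fun p hp hpm hpn =>
    hp.one_lt.ne' (Nat.eq_one_of_dvd_coprimes c.hcop hpm hpn)
  have hxM : x ∈ MM G (Sn n) := mem_MM (by
    rw [show (Subgroup.centralizer ({x} : Set G)).index = n from hx]; exact hPn)
  have hxc : x ∉ Subgroup.center G := by
    intro hc
    have := cs_eq_one_of_mem_center hc
    rw [show (Subgroup.centralizer ({x} : Set G)).index = n from hx] at this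
    exact c.hn.ne' this
  have hMMc : ∀ a ∈ MM G (Sn n), ∀ b ∈ MM G (Sn n), a * b = b * a := fun a ha b hb =>
    d.comm_AA a b (d.A_of_mem_MM a ha) (d.A_of_mem_MM b hb)
  have hCx : Subgroup.centralizer ({x} : Set G) = MM G (Sn n) := by
    apply le_antisymm
    · intro g hg
      by_contra hgM
      exact hxc (d.mem_center_of_comm g x hgM hxM (mem_cn.mp hg).symm)
    · intro g hg
      exact mem_cn.mpr (hMMc g hg x hxM)
  have hyM : y ∉ MM G (Sn n) := by
    intro hyM
    have h1 := d.A_of_mem_MM y hyM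
    rw [show (Subgroup.centralizer ({y} : Set G)).index = m from hy] at h1
    have := h1.eq_one hPm
    have := c.hn.trans c.hmn
    omega
  obtain ⟨hF, hker, hfpf, hHc, hK⟩ := frob_data d y hyM
  refine ⟨⟨⟨?_⟩⟩, ⟨⟨?_⟩⟩, hF, ?_⟩
  · rintro ⟨a, ha⟩ ⟨b, hb⟩
    rw [hCx] at ha hb
    exact Subtype.ext (hMMc a ha b hb)
  · haveI hKn : ((MM G (Sn n)).map (QuotientGroup.mk' (Subgroup.center G))).Normal :=
      Subgroup.Normal.map (MM_normal _) _ (QuotientGroup.mk'_surjective _)
    haveI hcyc : IsCyclic ((Subgroup.centralizer ({y} : Set G)).map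
        (QuotientGroup.mk' (Subgroup.center G))) := by
      apply isCyclic_of_fpf _ _ hK _ hHc hfpf
      rintro _ ⟨a, ha, rfl⟩ _ ⟨b, hb, rfl⟩
      rw [← map_mul, ← map_mul, hMMc a ha b hb]
    intro a b
    apply commutative_of_cyclic_center_quotient
      ((QuotientGroup.mk' (Subgroup.center G)).subgroupMap (Subgroup.centralizer ({y} : Set G)))
    intro u hu
    rw [MonoidHom.mem_ker] at hu
    have h1 : QuotientGroup.mk' (Subgroup.center G) (u : G) = 1 := congrArg Subtype.val hu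
    have h2 : (u : G) ∈ Subgroup.center G := (QuotientGroup.eq_one_iff _).mp h1
    rw [Subgroup.mem_center_iff]
    intro v
    exact Subtype.ext ((Subgroup.mem_center_iff.mp h2) v)
  · rw [hker, hCx]

end Cfsg.Agent.Lib.Helper67.CopCls
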