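import Mathlib

set_option autoImplicit false

/-!
# Heisenberg-type pairs acting on a commutative group

`x, y` with `y x y⁻¹ = x z`, `z` central of order `p` acting fixed-point-freely on the commutative `p'`-group `U`,
`x ^ p = 1`: then `C_U(x) ≠ 1` and `|C_U(x)| ^ p ≤ |U|` (in fact equality).  Elementary averaging, no
representation theory.
-/

namespace Cfsg.Agent.Lib.Helper67

theorem norm_eq_one {U : Type*} [CommGroup U] (τ : MulAut U) (N : ℕ) (hτ : τ ^ N = 1)
    (hfix : ∀ u, τ u = u → u = 1) (u : U) : ∏ k ∈ Finset.range N, (τ ^ k) u = 1 := by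
  apply hfix
  rw [map_prod]
  have h1 : ∀ k, τ ((τ ^ k) u) = (τ ^ (k + 1)) u := fun k => by rw [pow_succ', MulAut.mul_apply]
  simp_rw [h1]
  have h2 := Finset.prod_range_succ' (fun k => (τ ^ k) u) N
  have h3 := Finset.prod_range_succ (fun k => (τ ^ k) u) N
  rw [h2] at h3
  simpa [hτ] using h3

/-- independence of "eigenspaces" -/
theorem indep_lemma {Γ U : Type*} [Group Γ] [CommGroup U] (σ : Γ →* MulAut U) {p : ℕ}
    (hU : ∀ u : U, u ^ p = 1 → u = 1) (x w : Γ) (hxw : x * w = w * x) (hwp : w ^ p = 1)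
    (hfpf : ∀ e : ℕ, ¬ p ∣ e → ∀ u, σ (w ^ e) u = u → u = 1)
    (u : Fin p → U) (hu : ∀ i, σ x (u i) = σ (w ^ (i : ℕ)) (u i)) (hprod : ∏ i, u i = 1) (j : Fin p) :
    u j = 1 := by
  have ha : ∀ (k : ℕ) (i : Fin p), σ (x ^ k) (u i) = σ (w ^ ((i : ℕ) * k)) (u i) := by
    intro k i
    induction k with
    | zero => simp
    | succ k ih =>
      have hc : x * w ^ ((i : ℕ) * k) = w ^ ((i : ℕ) * k) * x := (Commute.pow_right hxw _).eq
      rw [pow_succ', map_mul, MulAut.mul_apply, ih, ← MulAut.mul_apply, ← map_mul, hc, map_mul,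
        MulAut.mul_apply, hu, ← MulAut.mul_apply, ← map_mul, ← pow_add, Nat.mul_succ]
  have hb : ∀ k : ℕ, ∏ i : Fin p, (σ (w ^ (p - (j : ℕ) + (i : ℕ))) ^ k) (u i) = 1 := by
    intro k
    have h1 := congrArg (σ (w ^ ((p - (j : ℕ)) * k))) (congrArg (σ (x ^ k)) hprod)
    rw [map_one, map_one, map_prod, map_prod] at h1
    rw [← h1]
    apply Finset.prod_congr rfl
    intro i _
    rw [ha, ← MulAut.mul_apply, ← map_mul, ← pow_add, ← map_pow, ← pow_mul, add_mul]
  have hc : ∏ k ∈ Finset.range p, ∏ i : Fin p, (σ (w ^ (p - (j : ℕ) + (i : ℕ))) ^ k) (u i) = 1 :=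
    Finset.prod_eq_one (fun k _ => hb k)
  rw [Finset.prod_comm, Finset.prod_eq_single j] at hc
  · apply hU
    have e : p - (j : ℕ) + (j : ℕ) = p := Nat.sub_add_cancel j.2.le
    rw [e, hwp, map_one] at hc
    simpa using hc
  · intro i _ hij
    apply norm_eq_one
    · rw [← map_pow, ← pow_mul, mul_comm, pow_mul, hwp, one_pow, map_one]
    · apply hfpf
      intro hd
      have h1 := i.2
      have h2 := j.2
      have h3 : (i : ℕ) ≠ (j : ℕ) := fun h => hij (Fin.ext h)
      obtain ⟨c, hc'⟩ := hd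
      have h4 : c = 1 := by
        rcases c with _ | _ | c
        · omega
        · rfl
        · exfalso
          have : p * (c + 1 + 1) = p * c + 2 * p := by ring
          have h5 : 0 ≤ p * c := Nat.zero_le _
          omega
      rw [h4] at hc'
      omega
  · intro h
    exact absurd (Finset.mem_univ j) h

theorem step_lemma {Γ U : Type*} [Group Γ] [CommGroup U] [Finite U] (σ : Γ →* MulAut U) {p : ℕ}
    (hp : p.Prime) (hU : ∀ u : U, u ^ p = 1 → u = 1) (x y z : Γ) (hyx : y * x = x * z * y)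
    (hxz : x * z = z * x) (hyz : y * z = z * y) (hxp : x ^ p = 1) (hzp : z ^ p = 1)
    (hfpf : ∀ e : ℕ, ¬ p ∣ e → ∀ u, σ (z ^ e) u = u → u = 1) :
    ((∀ u, σ x u = u → u = 1) → ∀ u : U, u = 1) ∧
      (Nat.card {u : U // σ x u = u}) ^ p ≤ Nat.card U := by
  have R1 : ∀ i : ℕ, y ^ i * x = x * z ^ i * y ^ i := by
    intro i
    induction i with
    | zero => simp
    | succ i ih =>
      have hc : y * z ^ i = z ^ i * y := (Commute.pow_right hyz i).eq
      calc y ^ (i + 1) * x = y * (y ^ i * x) := by rw [pow_succ']; group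
        _ = (y * x) * z ^ i * y ^ i := by rw [ih]; group
        _ = x * z * (y * z ^ i) * y ^ i := by rw [hyx]; group
        _ = x * z ^ (i + 1) * y ^ (i + 1) := by rw [hc, pow_succ' z, pow_succ' y]; group
  constructor
  · intro hx0 a
    have hfix : ∀ (i : ℕ) (u : U), σ (x * z ^ i) u = u → u = 1 := by
      intro i u h
      have e : x * (y ^ i)⁻¹ = (y ^ i)⁻¹ * (x * z ^ i) := by
        calc x * (y ^ i)⁻¹ = (y ^ i)⁻¹ * (y ^ i * x) * (y ^ i)⁻¹ := by group
          _ = (y ^ i)⁻¹ * (x * z ^ i) := by rw [R1]; group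
      have h1 : σ x (σ (y ^ i)⁻¹ u) = σ (y ^ i)⁻¹ u := by
        rw [← MulAut.mul_apply, ← map_mul, e, map_mul, MulAut.mul_apply, h]
      have h2 := hx0 _ h1
      exact (EmbeddingLike.map_eq_one_iff).1 h2
    have hN : ∀ i : ℕ, ∏ k ∈ Finset.range p, σ (x ^ k) ((σ (z ^ k) ^ i) a) = 1 := by
      intro i
      have hcm : Commute x (z ^ i) := Commute.pow_right hxz i
      have h1 := norm_eq_one (σ (x * z ^ i)) p
        (by rw [← map_pow, hcm.mul_pow, hxp, ← pow_mul, mul_comm, pow_mul, hzp, one_pow, one_mul, map_one])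
        (hfix i) a
      rw [← h1]
      apply Finset.prod_congr rfl
      intro k _
      rw [← map_pow, ← map_pow, hcm.mul_pow, map_mul, MulAut.mul_apply, ← pow_mul, ← pow_mul, mul_comm]
    have H : ∏ i ∈ Finset.range p, ∏ k ∈ Finset.range p, σ (x ^ k) ((σ (z ^ k) ^ i) a) = 1 :=
      Finset.prod_eq_one (fun i _ => hN i)
    rw [Finset.prod_comm, Finset.prod_eq_single_of_mem 0 (Finset.mem_range.2 hp.pos)] at H
    · apply hU
      simpa using H
    · intro k hk hk0
      rw [← map_prod, norm_eq_one (σ (z ^ k)) p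
        (by rw [← map_pow, ← pow_mul, mul_comm, pow_mul, hzp, one_pow, map_one])
        (hfpf k (fun hd => hk0 (Nat.eq_zero_of_dvd_of_lt hd (Finset.mem_range.1 hk)))) a, map_one]
  · have hxw : x * z⁻¹ = z⁻¹ * x := (Commute.inv_right hxz).eq
    have hwp : (z⁻¹) ^ p = 1 := by rw [inv_pow, hzp, inv_one]
    have hfpf' : ∀ e : ℕ, ¬ p ∣ e → ∀ u, σ ((z⁻¹) ^ e) u = u → u = 1 := by
      intro e he u h
      apply hfpf e he
      have h1 := congrArg (σ (z ^ e)) h
      rw [← MulAut.mul_apply, ← map_mul, inv_pow, mul_inv_cancel, map_one, MulAut.one_apply] at h1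
      exact h1.symm
    have hinj : Function.Injective (fun f : Fin p → {u : U // σ x u = u} =>
        ∏ i : Fin p, σ (y ^ (i : ℕ)) (f i : U)) := by
      intro f g hfg
      funext j
      apply Subtype.ext
      have hu : ∀ i : Fin p, σ x (σ (y ^ (i : ℕ)) ((f i : U) / (g i : U)))
          = σ ((z⁻¹) ^ (i : ℕ)) (σ (y ^ (i : ℕ)) ((f i : U) / (g i : U))) := by
        intro i
        have e : x * y ^ (i : ℕ) = (z⁻¹) ^ (i : ℕ) * y ^ (i : ℕ) * x := by
          have hcm : x * z ^ (i : ℕ) = z ^ (i : ℕ) * x := (Commute.pow_right hxz _).eq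
          rw [mul_assoc, R1, hcm, inv_pow]; group
        rw [← MulAut.mul_apply, ← map_mul, e, map_mul, map_mul, MulAut.mul_apply, MulAut.mul_apply,
          map_div, (f i).2, (g i).2]
      have hprod : ∏ i : Fin p, σ (y ^ (i : ℕ)) ((f i : U) / (g i : U)) = 1 := by
        simp only [map_div, Finset.prod_div_distrib]
        rw [div_eq_one]
        exact hfg
      have h1 := indep_lemma σ hU x z⁻¹ hxw hwp hfpf' _ hu hprod j
      have h2 := (EmbeddingLike.map_eq_one_iff).1 h1
      exact div_eq_one.1 h2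
    have h3 := Nat.card_le_card_of_injective _ hinj
    rwa [Nat.card_fun, Nat.card_fin] at h3

end Cfsg.Agent.Lib.Helper67
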