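import Mathlib
import Cfsg.Agent.Lib.Helper67.Extraspecial
import Cfsg.Agent.Lib.Helper67.ExtraSub
import Cfsg.Agent.Lib.Helper67.ExtraAct
import Cfsg.Agent.Lib.Helper14.Class2

set_option autoImplicit false
set_option linter.style.haveILetI false

open scoped IsMulCommutative

/-!
# Lower bound for faithful modules of extraspecial groups (elementary)
-/

namespace Cfsg.Agent.Lib.Helper67

variable {G : Type*} [Group G]

/-- `H` has centre `Z` of order `p` containing all commutators of `H` (ambient form). -/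
structure ED (p : ℕ) (Z H : Subgroup G) : Prop where
  card : Nat.card Z = p
  comm : ∀ a ∈ H, ∀ b ∈ H, a * b * a⁻¹ * b⁻¹ ∈ Z
  cent : ∀ z ∈ Z, ∀ h ∈ H, h * z = z * h
  center : H ⊓ Subgroup.centralizer (H : Set G) = Z

namespace ED

variable {p : ℕ} {Z H : Subgroup G}

theorem le (h : ED p Z H) : Z ≤ H := h.center ▸ inf_le_left

theorem pow_eq_one (h : ED p Z H) {z : G} (hz : z ∈ Z) : z ^ p = 1 := by
  have h4 : (⟨z, hz⟩ : ↥Z) ^ p = 1 := by
    rw [← h.card]; exact pow_card_eq_one'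
  exact congrArg Subtype.val h4

theorem pow_mem (h : ED p Z H) {y : G} (hy : y ∈ H) : y ^ p ∈ Z := by
  rw [← h.center]
  refine Subgroup.mem_inf.2 ⟨H.pow_mem hy p, ?_⟩
  rw [Subgroup.mem_centralizer_iff]
  intro q hq
  have h1 := comm_pow h.comm h.cent hy hq p
  rw [h.pow_eq_one (h.comm y hy q hq)] at h1
  have h2 := congrArg (fun w => w * q * y ^ p) h1
  simpa [mul_assoc] using h2.symm

theorem exists_pow [Finite G] [hp : Fact p.Prime] (h : ED p Z H) {t s : G} (ht : t ∈ Z) (ht1 : t ≠ 1)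
    (hs : s ∈ Z) : ∃ j : ℕ, t ^ j = s := by
  have ho : orderOf t = p := orderOf_eq_prime (h.pow_eq_one ht) ht1
  have h1 : Subgroup.zpowers t = Z := by
    apply Subgroup.eq_of_le_of_card_ge (Subgroup.zpowers_le.2 ht)
    rw [Nat.card_zpowers, ho, h.card]
  rw [← h1] at hs
  exact Submonoid.mem_powers_iff _ _ |>.1 (mem_powers_iff_mem_zpowers.2 hs)

theorem not_mem_of_not_comm (h : ED p Z H) {x y : G} (hy : y ∈ H) (hxy : x * y ≠ y * x) : x ∉ Z :=
  fun hx => hxy (h.cent x hx y hy).symm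

theorem step [Finite G] [hp : Fact p.Prime] (h : ED p Z H) {x y : G} (hx : x ∈ H) (hy : y ∈ H)
    (hxy : x * y ≠ y * x) :
    ED p Z (H ⊓ Subgroup.centralizer {x} ⊓ Subgroup.centralizer {y}) ∧
      (H ⊓ Subgroup.centralizer {x} ⊓ Subgroup.centralizer {y}).relIndex H = p * p := by
  have hcomm := h.comm
  have hcent := h.cent
  have hZ := h.card
  have hp' := hp.out
  set C := H ⊓ Subgroup.centralizer {x} with hC
  set K := C ⊓ Subgroup.centralizer {y} with hK
  have hxC : x ∈ C := Subgroup.mem_inf.2 ⟨hx, mem_cz.2 rfl⟩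
  have h1 : C.relIndex H = p :=
    relIndex_centralizer_eq hZ hcomm hcent le_rfl hx ⟨y, hy, fun h => hxy h.symm⟩
  have h2 : K.relIndex C = p :=
    relIndex_centralizer_eq hZ hcomm hcent inf_le_left hy ⟨x, hxC, hxy⟩
  have hKC : K ≤ C := inf_le_left
  have hCH : C ≤ H := inf_le_left
  have h3 : K.relIndex H = p * p := by
    rw [← Subgroup.relIndex_mul_relIndex K C H hKC hCH, h1, h2]
  have hZK : K ⊓ Subgroup.centralizer (K : Set G) = H ⊓ Subgroup.centralizer (H : Set G) := by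
    apply le_antisymm
    · intro z hz
      obtain ⟨hzK, hzc⟩ := Subgroup.mem_inf.1 hz
      obtain ⟨hzC, hzy⟩ := Subgroup.mem_inf.1 hzK
      obtain ⟨hzH, hzx⟩ := Subgroup.mem_inf.1 hzC
      rw [mem_cz] at hzx hzy
      refine Subgroup.mem_inf.2 ⟨hzH, ?_⟩
      have e1 : K ⊔ Subgroup.zpowers x = C := by
        apply eq_of_relIndex_prime hp' le_sup_left (sup_le hKC (by simpa using hxC)) h2
        intro hle
        have : x ∈ K := hle (Subgroup.mem_sup_right (Subgroup.mem_zpowers x))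
        have := (Subgroup.mem_inf.1 this).2
        rw [mem_cz] at this
        exact hxy this
      have e2 : C ⊔ Subgroup.zpowers y = H := by
        apply eq_of_relIndex_prime hp' le_sup_left (sup_le hCH (by simpa using hy)) h1
        intro hle
        have : y ∈ C := hle (Subgroup.mem_sup_right (Subgroup.mem_zpowers y))
        have := (Subgroup.mem_inf.1 this).2
        rw [mem_cz] at this
        exact hxy this.symm
      have hle : H ≤ Subgroup.centralizer {z} := by
        rw [← e2, ← e1]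
        refine sup_le (sup_le ?_ ?_) ?_
        · intro k hk
          rw [mem_cz]
          exact (Subgroup.mem_centralizer_iff.1 hzc k hk)
        · rw [Subgroup.zpowers_le, mem_cz]
          exact hzx.symm
        · rw [Subgroup.zpowers_le, mem_cz]
          exact hzy.symm
      rw [Subgroup.mem_centralizer_iff]
      intro h hh
      have := hle hh
      rw [mem_cz] at this
      exact this
    · intro z hz0
      obtain ⟨hzH, hzc⟩ := Subgroup.mem_inf.1 hz0
      have hz := Subgroup.mem_centralizer_iff.1 hzc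
      refine Subgroup.mem_inf.2 ⟨Subgroup.mem_inf.2 ⟨Subgroup.mem_inf.2 ⟨hzH, ?_⟩, ?_⟩, ?_⟩
      · rw [mem_cz]; exact (hz x hx).symm
      · rw [mem_cz]; exact (hz y hy).symm
      · rw [Subgroup.mem_centralizer_iff]
        intro k hk
        exact hz k (hCH (hKC hk))
  refine ⟨⟨hZ, fun a ha b hb => hcomm a (hCH (hKC ha)) b (hCH (hKC hb)),
    fun z hz k hk => hcent z hz k (hCH (hKC hk)), hZK.trans h.center⟩, h3⟩

theorem exists_not_comm (h : ED p Z H) (hne : Z.relIndex H ≠ 1) : ∃ x ∈ H, ∃ y ∈ H, x * y ≠ y * x := by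
  by_contra hcon
  push Not at hcon
  apply hne
  rw [Subgroup.relIndex_eq_one, ← h.center]
  refine le_inf le_rfl ?_
  intro a ha
  rw [Subgroup.mem_centralizer_iff]
  intro b hb
  exact hcon b hb a ha

theorem relIndex_step [Finite G] [hp : Fact p.Prime] (h : ED p Z H) {x y : G} (hx : x ∈ H) (hy : y ∈ H)
    (hxy : x * y ≠ y * x) {m : ℕ} (hidx : Z.relIndex H = p ^ (2 * (m + 1))) :
    Z.relIndex (H ⊓ Subgroup.centralizer {x} ⊓ Subgroup.centralizer {y}) = p ^ (2 * m) := by
  obtain ⟨h1, h2⟩ := h.step hx hy hxy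
  have h3 := Subgroup.relIndex_mul_relIndex Z _ H h1.le (inf_le_left.trans inf_le_left)
  rw [h2, hidx] at h3
  have e : p ^ (2 * (m + 1)) = p ^ (2 * m) * (p * p) := by ring
  rw [e] at h3
  exact Nat.eq_of_mul_eq_mul_right (Nat.mul_pos hp.out.pos hp.out.pos) h3

/-- a noncentral element of order `p`, except for the quaternion group. -/
theorem exists_order_p [Finite G] [hp : Fact p.Prime] (h : ED p Z H) {m : ℕ}
    (hidx : Z.relIndex H = p ^ (2 * (m + 1))) :
    (∃ x ∈ H, x ∉ Z ∧ x ^ p = 1) ∨ (p = 2 ∧ m = 0) := by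
  have hne : Z.relIndex H ≠ 1 := by
    rw [hidx]
    exact (Nat.one_lt_pow (by omega) hp.out.one_lt).ne'
  obtain ⟨x0, hx0, y0, hy0, hxy⟩ := h.exists_not_comm hne
  by_cases hx0p : x0 ^ p = 1
  · exact Or.inl ⟨x0, hx0, h.not_mem_of_not_comm hy0 hxy, hx0p⟩
  by_cases hp2 : p = 2
  · by_cases hm : m = 0
    · exact Or.inr ⟨hp2, hm⟩
    left
    obtain ⟨m', rfl⟩ := Nat.exists_eq_succ_of_ne_zero hm
    obtain ⟨hK, -⟩ := h.step hx0 hy0 hxy
    have hKidx := h.relIndex_step hx0 hy0 hxy hidx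
    have hKne : Z.relIndex (H ⊓ Subgroup.centralizer {x0} ⊓ Subgroup.centralizer {y0}) ≠ 1 := by
      rw [hKidx]
      exact (Nat.one_lt_pow (by omega) hp.out.one_lt).ne'
    obtain ⟨u, hu, v, hv, huv⟩ := hK.exists_not_comm hKne
    have huH : u ∈ H := (Subgroup.mem_inf.1 (Subgroup.mem_inf.1 hu).1).1
    have hvH : v ∈ H := (Subgroup.mem_inf.1 (Subgroup.mem_inf.1 hv).1).1
    have hux : u * x0 = x0 * u := mem_cz.1 (Subgroup.mem_inf.1 (Subgroup.mem_inf.1 hu).1).2
    have huy : u * y0 = y0 * u := mem_cz.1 (Subgroup.mem_inf.1 hu).2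
    by_cases hup : u ^ p = 1
    · exact ⟨u, huH, h.not_mem_of_not_comm hvH huv, hup⟩
    refine ⟨x0 * u, H.mul_mem hx0 huH, ?_, ?_⟩
    · apply h.not_mem_of_not_comm hy0
      intro hc
      apply hxy
      have h1 : x0 * y0 * u = y0 * x0 * u := by
        calc x0 * y0 * u = x0 * (u * y0) := by rw [huy, mul_assoc]
          _ = y0 * (x0 * u) := by rw [← mul_assoc, hc]
          _ = y0 * x0 * u := by rw [mul_assoc]
      exact mul_right_cancel h1
    · have hcm : Commute x0 u := hux.symm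
      rw [hcm.mul_pow]
      obtain ⟨j, hj⟩ := h.exists_pow (h.pow_mem hx0) hx0p (h.pow_mem huH)
      have hsq : (x0 ^ p) ^ 2 = 1 := by
        have := h.pow_eq_one (h.pow_mem hx0)
        rwa [hp2] at this ⊢
      rcases Nat.even_or_odd' j with ⟨c, hc | hc⟩
      · exfalso
        apply hup
        rw [← hj, hc, pow_mul, hsq, one_pow]
      · rw [← hj, hc, pow_succ, pow_mul, hsq, one_pow, one_mul, ← pow_two, hsq]
  · left
    obtain ⟨j, hj⟩ := h.exists_pow (h.pow_mem hx0) hx0p (Z.inv_mem (h.pow_mem hy0))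
    have hxj : x0 ^ j ∈ H := H.pow_mem hx0 j
    refine ⟨y0 * x0 ^ j, H.mul_mem hy0 hxj, ?_, ?_⟩
    · apply h.not_mem_of_not_comm hx0
      intro hc
      apply hxy
      have h1 : y0 * x0 * x0 ^ j = x0 * y0 * x0 ^ j := by
        calc y0 * x0 * x0 ^ j = y0 * x0 ^ j * x0 := by
              rw [mul_assoc, mul_assoc, ← pow_succ', ← pow_succ]
          _ = x0 * y0 * x0 ^ j := by rw [hc, mul_assoc]
      exact (mul_right_cancel h1).symm
    · have hzZ := h.comm _ hxj _ hy0
      have hz : x0 ^ j * y0 = (x0 ^ j * y0 * (x0 ^ j)⁻¹ * y0⁻¹) * y0 * x0 ^ j := by group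
      have hzx : Commute (x0 ^ j * y0 * (x0 ^ j)⁻¹ * y0⁻¹) y0 := (h.cent _ hzZ _ hy0).symm
      have hzy : Commute (x0 ^ j * y0 * (x0 ^ j)⁻¹ * y0⁻¹) (x0 ^ j) := (h.cent _ hzZ _ hxj).symm
      rw [Cfsg.Agent.Lib.Helper14.mul_pow_of_commutator_central hz hzx hzy]
      obtain ⟨c, hc⟩ := Cfsg.Agent.Lib.Helper14.dvd_choose_two_of_odd (hp.out.odd_of_ne_two hp2)
      rw [hc, pow_mul _ p c, h.pow_eq_one hzZ, one_pow, mul_one, ← pow_mul, mul_comm j p, pow_mul, hj,
        mul_inv_cancel]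

end ED

theorem card_modEq_one {U : Type*} [Group U] [Finite U] {p : ℕ} [hp : Fact p.Prime] (τ : MulAut U)
    (hτ : τ ^ p = 1) (hfix : ∀ u, τ u = u → u = 1) : Nat.card U ≡ 1 [MOD p] := by
  have hP : IsPGroup p (Subgroup.zpowers τ) := by
    rintro ⟨g, hg⟩
    obtain ⟨k, rfl⟩ := Subgroup.mem_zpowers_iff.1 hg
    refine ⟨1, Subtype.ext ?_⟩
    show (τ ^ k) ^ p ^ 1 = 1
    rw [pow_one, ← zpow_natCast, ← zpow_mul, mul_comm, zpow_mul, zpow_natCast, hτ, one_zpow]
  have h1 := hP.card_modEq_card_fixedPoints U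
  have h2 : MulAction.fixedPoints (Subgroup.zpowers τ) U = {1} := by
    ext u
    rw [MulAction.mem_fixedPoints, Set.mem_singleton_iff]
    constructor
    · intro h
      exact hfix u (h ⟨τ, Subgroup.mem_zpowers τ⟩)
    · rintro rfl g
      exact map_one (g : MulAut U)
  rw [h2] at h1
  simpa using h1

/-- `B` is an abelian `r`-group normalized by `H` on which `Z` acts fixed-point-freely. -/
structure MD (r : ℕ) (Z H B : Subgroup G) : Prop where
  ab : ∀ a ∈ B, ∀ b ∈ B, a * b = b * a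
  rgrp : IsPGroup r B
  norm : H ≤ Subgroup.normalizer (B : Set G)
  ne : B ≠ ⊥
  fpf : ∀ z ∈ Z, z ≠ 1 → ∀ b ∈ B, z * b = b * z → b = 1

theorem MD.pow_p {p r : ℕ} [hp : Fact p.Prime] [hr : Fact r.Prime] (hpr : p ≠ r) {Z H B : Subgroup G}
    (hMD : MD r Z H B) (u : B) (hu : u ^ p = 1) : u = 1 := by
  obtain ⟨j, hj⟩ := hMD.rgrp u
  have d1 := orderOf_dvd_of_pow_eq_one hu
  have d2 := orderOf_dvd_of_pow_eq_one hj
  have hc : Nat.Coprime p (r ^ j) := Nat.Coprime.pow_right j ((Nat.coprime_primes hp.out hr.out).2 hpr)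
  exact orderOf_eq_one_iff.1 (Nat.eq_one_of_dvd_coprimes hc d1 d2)

theorem MD.step [Finite G] {p r : ℕ} [hp : Fact p.Prime] [hr : Fact r.Prime] (hpr : p ≠ r)
    {Z H B : Subgroup G} (hED : ED p Z H) (hMD : MD r Z H B) {x y : G} (hx : x ∈ H) (hy : y ∈ H)
    (hxy : x * y ≠ y * x) (hxp : x ^ p = 1) :
    B ⊓ Subgroup.centralizer {x} ≠ ⊥ ∧
      (Nat.card (B ⊓ Subgroup.centralizer {x} : Subgroup G)) ^ p ≤ Nat.card B := by
  haveI : IsMulCommutative B := ⟨⟨fun a b => Subtype.ext (hMD.ab a a.2 b b.2)⟩⟩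
  obtain ⟨x', hx'⟩ : ∃ x' : Subgroup.normalizer (B : Set G), (x' : G) = x := ⟨⟨x, hMD.norm hx⟩, rfl⟩
  obtain ⟨y', hy'⟩ : ∃ y' : Subgroup.normalizer (B : Set G), (y' : G) = y := ⟨⟨y, hMD.norm hy⟩, rfl⟩
  obtain ⟨σ, hσ⟩ : ∃ σ : Subgroup.normalizer (B : Set G) →* MulAut B,
      ∀ (g : Subgroup.normalizer (B : Set G)) (u : B), ((σ g u : B) : G) = g * u * (g : G)⁻¹ :=
    ⟨B.normalizerMonoidHom, fun _ _ => rfl⟩
  have hzZ : x⁻¹ * y * x * y⁻¹ ∈ Z := by
    have := hED.comm x⁻¹ (H.inv_mem hx) y hy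
    rwa [inv_inv] at this
  have hz1 : x⁻¹ * y * x * y⁻¹ ≠ 1 := by
    intro h
    apply hxy
    have h2 := congrArg (fun w => x * w * y) h
    simpa [mul_assoc] using h2.symm
  obtain ⟨z', hz', hzc⟩ : ∃ z' : Subgroup.normalizer (B : Set G), z' = x'⁻¹ * y' * x' * y'⁻¹ ∧
      (z' : G) = x⁻¹ * y * x * y⁻¹ := ⟨_, rfl, by simp [hx', hy']⟩
  have hzo : orderOf (x⁻¹ * y * x * y⁻¹) = p := orderOf_eq_prime (hED.pow_eq_one hzZ) hz1
  obtain ⟨h1, h2⟩ := step_lemma σ hp.out (hMD.pow_p hpr) x' y' z' (by rw [hz']; group)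
    (Subtype.ext (by rw [Subgroup.coe_mul, Subgroup.coe_mul, hzc, hx']; exact hED.cent _ hzZ x hx))
    (Subtype.ext (by rw [Subgroup.coe_mul, Subgroup.coe_mul, hzc, hy']; exact hED.cent _ hzZ y hy))
    (Subtype.ext (by rw [Subgroup.coe_pow, hx', hxp]; rfl))
    (Subtype.ext (by rw [Subgroup.coe_pow, hzc, hED.pow_eq_one hzZ]; rfl))
    (by
      intro e he u hu
      have h3 := congrArg Subtype.val hu
      rw [hσ, Subgroup.coe_pow, hzc] at h3
      have h4 : ((u : B) : G) = 1 := by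
        apply hMD.fpf _ (Z.pow_mem hzZ e) _ u u.2
        · exact (mul_inv_eq_iff_eq_mul.1 h3)
        · intro h5
          exact he (hzo ▸ orderOf_dvd_of_pow_eq_one h5)
      exact Subtype.ext h4)
  constructor
  · intro hbot
    apply hMD.ne
    rw [eq_bot_iff]
    intro b hb
    have h3 := h1 (by
      intro u hu
      have h4 := congrArg Subtype.val hu
      rw [hσ, hx'] at h4
      have h5 : (u : G) ∈ B ⊓ Subgroup.centralizer {x} := by
        refine Subgroup.mem_inf.2 ⟨u.2, mem_cz.2 ?_⟩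
        exact (mul_inv_eq_iff_eq_mul.1 h4).symm
      rw [hbot, Subgroup.mem_bot] at h5
      exact Subtype.ext h5) ⟨b, hb⟩
    exact congrArg Subtype.val h3
  · refine le_trans (Nat.pow_le_pow_left ?_ p) h2
    apply Nat.card_le_card_of_injective
      (fun b : (B ⊓ Subgroup.centralizer {x} : Subgroup G) =>
        (⟨⟨b, (Subgroup.mem_inf.1 b.2).1⟩, by
          apply Subtype.ext
          rw [hσ, hx']
          have := mem_cz.1 (Subgroup.mem_inf.1 b.2).2
          exact mul_inv_eq_iff_eq_mul.2 this.symm⟩ : {u : B // σ x' u = u}))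
    intro a b hab
    have := congrArg (fun w : {u : B // σ x' u = u} => ((w : B) : G)) hab
    exact Subtype.ext this

theorem MD.exists_card {r : ℕ} [hr : Fact r.Prime] [Finite G] {Z H B : Subgroup G} (hMD : MD r Z H B) :
    ∃ k, 1 ≤ k ∧ Nat.card B = r ^ k := by
  obtain ⟨k, hk⟩ := IsPGroup.iff_card.1 hMD.rgrp
  refine ⟨k, ?_, hk⟩
  rcases Nat.eq_zero_or_pos k with h0 | h0
  · exfalso
    rw [h0, pow_zero] at hk
    exact hMD.ne (Subgroup.card_eq_one.1 hk)
  · exact h0

/-- **Lower bound**: `H` with centre `Z` of order `p`, `H' ≤ Z`, `|H : Z| = p ^ (2m)`, acting on the nontrivial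
abelian `r`-group `B` with `Z` fixed-point-free: `|B| ≥ r ^ (n p ^ m)`, `n` the order of `r` modulo `p`. -/
theorem extra_bound [Finite G] {p r : ℕ} [hp : Fact p.Prime] [hr : Fact r.Prime] (hpr : p ≠ r)
    {Z : Subgroup G} (n : ℕ) (hmin : ∀ k : ℕ, 1 ≤ k → p ∣ r ^ k - 1 → n ≤ k) :
    ∀ (m : ℕ) (H B : Subgroup G), ED p Z H → Z.relIndex H = p ^ (2 * m) → MD r Z H B →
      r ^ (n * p ^ m) ≤ Nat.card B := by
  intro m
  induction m with
  | zero =>
    intro H B hED _ hMD
    obtain ⟨k, hk1, hk⟩ := hMD.exists_card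
    obtain ⟨z, hz, hz1⟩ : ∃ z ∈ Z, z ≠ 1 := by
      by_contra hcon
      push Not at hcon
      have h1 : Z = ⊥ := by
        rw [eq_bot_iff]
        intro z hz
        exact hcon z hz
      have h2 := hED.card
      rw [h1, Subgroup.card_bot] at h2
      exact hp.out.one_lt.ne h2
    have hmod : Nat.card B ≡ 1 [MOD p] := by
      apply card_modEq_one (B.normalizerMonoidHom ⟨z, hMD.norm (hED.le hz)⟩)
      · rw [← map_pow]
        have : (⟨z, hMD.norm (hED.le hz)⟩ : Subgroup.normalizer (B : Set G)) ^ p = 1 :=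
          Subtype.ext (hED.pow_eq_one hz)
        rw [this, map_one]
      · intro u hu
        have h3 : z * (u : G) * z⁻¹ = u := congrArg Subtype.val hu
        exact Subtype.ext (hMD.fpf z hz hz1 u u.2 (mul_inv_eq_iff_eq_mul.1 h3))
    have hdvd : p ∣ r ^ k - 1 := by
      rw [← hk]
      exact (Nat.modEq_iff_dvd' Nat.card_pos).1 hmod.symm
    rw [pow_zero, mul_one, hk]
    exact Nat.pow_le_pow_right hr.out.pos (hmin k hk1 hdvd)
  | succ m ih =>
    intro H B hED hidx hMD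
    rcases hED.exists_order_p hidx with ⟨x, hx, hxZ, hxp⟩ | ⟨hp2, hm0⟩
    · obtain ⟨y, hy, hxy⟩ : ∃ y ∈ H, x * y ≠ y * x := by
        by_contra hcon
        push Not at hcon
        apply hxZ
        rw [← hED.center]
        refine Subgroup.mem_inf.2 ⟨hx, ?_⟩
        rw [Subgroup.mem_centralizer_iff]
        intro h hh
        exact (hcon h hh).symm
      obtain ⟨hK, -⟩ := hED.step hx hy hxy
      have hKidx := hED.relIndex_step hx hy hxy hidx
      obtain ⟨hB0, hcard⟩ := hMD.step hpr hED hx hy hxy hxp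
      have hMD0 : MD r Z (H ⊓ Subgroup.centralizer {x} ⊓ Subgroup.centralizer {y})
          (B ⊓ Subgroup.centralizer {x}) := by
        refine ⟨fun a ha b hb => hMD.ab a (Subgroup.mem_inf.1 ha).1 b (Subgroup.mem_inf.1 hb).1,
          hMD.rgrp.to_le inf_le_left, ?_, hB0,
          fun z hz hz1 b hb => hMD.fpf z hz hz1 b (Subgroup.mem_inf.1 hb).1⟩
        intro k hk
        have hkH : k ∈ H := (Subgroup.mem_inf.1 (Subgroup.mem_inf.1 hk).1).1
        have hkx : k ∈ Subgroup.centralizer {x} := (Subgroup.mem_inf.1 (Subgroup.mem_inf.1 hk).1).2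
        have h1 := Subgroup.mem_normalizer_iff.1 (hMD.norm hkH)
        have h2 := Subgroup.mem_normalizer_iff.1 (Subgroup.le_normalizer hkx)
        rw [Subgroup.mem_normalizer_iff]
        intro b
        rw [Subgroup.mem_inf, Subgroup.mem_inf]
        exact and_congr (h1 b) (h2 b)
      have h3 := ih _ _ hK hKidx hMD0
      calc r ^ (n * p ^ (m + 1)) = (r ^ (n * p ^ m)) ^ p := by rw [← pow_mul, pow_succ, mul_assoc]
        _ ≤ (Nat.card (B ⊓ Subgroup.centralizer {x} : Subgroup G)) ^ p := Nat.pow_le_pow_left h3 p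
        _ ≤ Nat.card B := hcard
    · subst hm0
      obtain ⟨k, hk1, hk⟩ := hMD.exists_card
      have hn1 : n ≤ 1 := by
        apply hmin 1 le_rfl
        rw [hp2, pow_one]
        have hodd : Odd r := hr.out.odd_of_ne_two (fun h => hpr (hp2.trans h.symm))
        obtain ⟨c, hc⟩ := hodd
        exact ⟨c, by omega⟩
      have hk2 : 2 ≤ k := by
        by_contra hlt
        have hk' : k = 1 := by omega
        rw [hk', pow_one] at hk
        haveI : IsCyclic B := isCyclic_of_prime_card hk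
        have hne : Z.relIndex H ≠ 1 := by
          rw [hidx]
          exact (Nat.one_lt_pow (by omega) hp.out.one_lt).ne'
        obtain ⟨x, hx, y, hy, hxy⟩ := hED.exists_not_comm hne
        obtain ⟨a, ha⟩ := MonoidHom.map_cyclic (B.normalizerMonoidHom ⟨x, hMD.norm hx⟩).toMonoidHom
        obtain ⟨b, hb⟩ := MonoidHom.map_cyclic (B.normalizerMonoidHom ⟨y, hMD.norm hy⟩).toMonoidHom
        have ha' : ∀ u : B, x * (u : G) * x⁻¹ = (u : G) ^ a := fun u => congrArg Subtype.val (ha u)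
        have hb' : ∀ u : B, y * (u : G) * y⁻¹ = (u : G) ^ b := fun u => congrArg Subtype.val (hb u)
        have hzZ : x⁻¹ * y⁻¹ * x * y ∈ Z := by
          have := hED.comm x⁻¹ (H.inv_mem hx) y⁻¹ (H.inv_mem hy)
          rwa [inv_inv, inv_inv] at this
        have hz1 : x⁻¹ * y⁻¹ * x * y ≠ 1 := by
          intro h
          apply hxy
          have h2 := congrArg (fun w => y * x * w) h
          simpa [mul_assoc] using h2
        apply hMD.ne
        rw [eq_bot_iff]
        intro u hu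
        apply hMD.fpf _ hzZ hz1 u hu
        have e1 : x * (y * u * y⁻¹) * x⁻¹ = y * (x * u * x⁻¹) * y⁻¹ := by
          have h1 := hb' ⟨u, hu⟩
          have h2 := ha' ⟨u, hu⟩
          have h3 := ha' (⟨u, hu⟩ ^ b)
          have h4 := hb' (⟨u, hu⟩ ^ a)
          simp only [Subgroup.coe_zpow] at h1 h2 h3 h4
          rw [h1, h2, h3, h4, ← zpow_mul, ← zpow_mul, mul_comm]
        calc x⁻¹ * y⁻¹ * x * y * u = x⁻¹ * y⁻¹ * (x * (y * u * y⁻¹) * x⁻¹) * x * y := by group
          _ = x⁻¹ * y⁻¹ * (y * (x * u * x⁻¹) * y⁻¹) * x * y := by rw [e1]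
          _ = u * (x⁻¹ * y⁻¹ * x * y) := by group
      rw [hk, hp2]
      apply Nat.pow_le_pow_right hr.out.pos
      have : n * 2 ^ (0 + 1) ≤ 1 * 2 := by
        simp only [zero_add, pow_one]
        exact Nat.mul_le_mul_right 2 hn1
      omega

end Cfsg.Agent.Lib.Helper67
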