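import Mathlib
import Cfsg.Prelude.Def_Transfer
import Cfsg.Agent.Lib.Helper67.SylowAux
import Cfsg.Agent.Lib.Helper40.PComp
import Cfsg.Agent.Lib.Helper30.SZ

set_option autoImplicit false

namespace Cfsg.Agent.Lib.Helper67

/-- If `N_G(P)` has a normal `p`-complement then `N_G(P) = C_G(P) P`. -/
theorem normalizer_decomp {G : Type*} [Group G] [Finite G] {p : ℕ} [Fact p.Prime] (P : Sylow p G)
    (hN : Cfsg.HasNormalPComplement p ↥(Subgroup.normalizer ((P : Subgroup G) : Set G))) :
    ∀ g ∈ Subgroup.normalizer ((P : Subgroup G) : Set G),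
      ∃ k ∈ Subgroup.centralizer ((P : Subgroup G) : Set G), ∃ u ∈ (P : Subgroup G), g = k * u := by
  set N := Subgroup.normalizer ((P : Subgroup G) : Set G) with hNdef
  obtain ⟨P1, K0, hK0n, hc⟩ := hN
  have hPn : ((P : Subgroup G).subgroupOf N).Normal := Subgroup.normal_in_normalizer
  have hPp : IsPGroup p ((P : Subgroup G).subgroupOf N) :=
    P.isPGroup'.comap_of_injective N.subtype N.subtype_injective
  have h1 : (P : Subgroup G).subgroupOf N ≤ P1 := hPp.le_sylow_of_normal P1
  have h2 : (P1 : Subgroup N).map N.subtype = P := by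
    apply P.is_maximal' (P1.isPGroup'.map _)
    have := Subgroup.map_mono (f := N.subtype) h1
    rwa [Subgroup.map_subgroupOf_eq_of_le Subgroup.le_normalizer] at this
  have h3 : (P1 : Subgroup N) = (P : Subgroup G).subgroupOf N := by
    apply le_antisymm _ h1
    intro x hx
    rw [Subgroup.mem_subgroupOf, ← h2]
    exact ⟨x, hx, rfl⟩
  intro g hg
  obtain ⟨⟨k, u⟩, hku⟩ := hc.2 ⟨g, hg⟩
  have hku' : (k : N) * (u : N) = ⟨g, hg⟩ := hku
  refine ⟨((k : N) : G), ?_, ((u : N) : G), ?_, ?_⟩
  · rw [Subgroup.mem_centralizer_iff]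
    intro x hx
    have hxN : (⟨x, Subgroup.le_normalizer hx⟩ : N) ∈ (P1 : Subgroup N) := by
      rw [h3, Subgroup.mem_subgroupOf]; exact hx
    have := Subgroup.commute_of_normal_of_disjoint K0 P1 hK0n (h3 ▸ hPn) hc.disjoint k _ k.2 hxN
    exact (congrArg Subtype.val this.eq).symm
  · have h4 : (u : N) ∈ (P : Subgroup G).subgroupOf N := h3.le u.2
    exact Subgroup.mem_subgroupOf.1 h4
  · exact (congrArg Subtype.val hku').symm

/-- Easy case of Tate's theorem: `Q ⊴ X`, `Q` non-generating in a Sylow `p`-subgroup, `X / Q`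
`p`-nilpotent implies `X` is `p`-nilpotent. -/
theorem npc_of_quotient {X : Type*} [Group X] [Finite X] {p : ℕ} [Fact p.Prime] (P : Sylow p X)
    (Q : Subgroup X) [Q.Normal] (hQP : Q ≤ P)
    (hΦ : ∀ R : Subgroup X, R ≤ P → Q ⊔ R = P → R = P)
    (h : Cfsg.HasNormalPComplement p (X ⧸ Q)) : Cfsg.HasNormalPComplement p X := by
  have hp : p.Prime := Fact.out
  obtain ⟨Kb, hKbn, hKbc, hKbp, -⟩ := Lib.Helper40.HasNormalPComplement.exists_normal h
  set K := Kb.comap (QuotientGroup.mk' Q) with hK
  have hKn : K.Normal := hKbn.comap _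
  have hQK : Q ≤ K := by
    have := MonoidHom.ker_le_comap (QuotientGroup.mk' Q) Kb
    rwa [QuotientGroup.ker_mk'] at this
  have hrel : Q.relIndex K = Nat.card Kb := by
    have := Subgroup.relIndex_ker (QuotientGroup.mk' Q) (K := K)
    rw [QuotientGroup.ker_mk', hK, Subgroup.map_comap_eq_self_of_surjective
      (QuotientGroup.mk'_surjective Q)] at this
    exact this
  have hQp : IsPGroup p Q := P.isPGroup'.to_le hQP
  obtain ⟨a, ha⟩ := IsPGroup.iff_card.1 hQp
  have hcQ' : Nat.card (Q.subgroupOf K) = Nat.card Q :=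
    Nat.card_congr (Subgroup.subgroupOfEquivOfLe hQK).toEquiv
  have hcop : Nat.Coprime (Nat.card (Q.subgroupOf K)) (Q.subgroupOf K).index := by
    rw [hcQ', ha]
    change Nat.Coprime _ (Q.relIndex K)
    rw [hrel]
    exact (Nat.Coprime.pow_right a hKbc).symm
  obtain ⟨L', hL'⟩ := Subgroup.exists_right_complement'_of_coprime hcop
  set L := L'.map K.subtype with hL
  have hLK : L ≤ K := Subgroup.map_subtype_le _
  have hcL : Nat.card L = Nat.card Kb := by
    rw [hL, Subgroup.card_map_of_injective K.subtype_injective, ← hrel]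
    have h1 := hL'.card_mul_card
    have h2 := Subgroup.card_mul_index (Q.subgroupOf K)
    have h3 : 0 < Nat.card (Q.subgroupOf K) := Nat.card_pos
    exact Nat.eq_of_mul_eq_mul_left h3 (h1.trans h2.symm)
  have hsup : Q ⊔ L = K := by
    have := congrArg (Subgroup.map K.subtype) hL'.sup_eq_top
    rw [Subgroup.map_sup, Subgroup.map_subgroupOf_eq_of_le hQK, ← MonoidHom.range_eq_map,
      Subgroup.range_subtype] at this
    exact this
  have hcopQL : (Nat.card Q).Coprime (Nat.card L) := by
    rw [hcL, ha]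
    exact (Nat.Coprime.pow_right a hKbc).symm
  have hQsol : Group.IsSolvable Q := by
    have : Group.IsNilpotent Q := hQp.isNilpotent
    infer_instance
  have key : ∀ g : X, ∃ x ∈ Q, x⁻¹ * g ∈ Subgroup.normalizer (L : Set X) := by
    intro g
    have h1 : cj g L ≤ Q ⊔ L := by
      rw [hsup]
      have := cj_mono g hLK
      rwa [cj_normal (H := K)] at this
    obtain ⟨x, hx, hxe⟩ := Lib.Helper30.sz_conj_solvable_normal Q hQsol L (cj g L) hcopQL h1
      (card_cj g L)
    exact ⟨x, hx, cj_eq_cj_iff.1 hxe⟩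
  have hPN : (P : Subgroup X) ≤ Subgroup.normalizer (L : Set X) := by
    have h1 : Q ⊔ ((P : Subgroup X) ⊓ Subgroup.normalizer (L : Set X)) = P := by
      apply le_antisymm (sup_le hQP inf_le_left)
      intro u hu
      obtain ⟨x, hx, hxn⟩ := key u
      have : u = x * (x⁻¹ * u) := by group
      rw [this]
      exact Subgroup.mul_mem _ (Subgroup.mem_sup_left hx) (Subgroup.mem_sup_right
        (Subgroup.mem_inf.2 ⟨Subgroup.mul_mem _ (Subgroup.inv_mem _ (hQP hx)) hu, hxn⟩))
    have h2 := hΦ _ inf_le_left h1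
    exact h2 ▸ inf_le_right
  have hLn : L.Normal := by
    rw [← Subgroup.normalizer_eq_top_iff, eq_top_iff]
    intro g _
    obtain ⟨x, hx, hxn⟩ := key g
    have : g = x * (x⁻¹ * g) := by group
    rw [this]
    exact Subgroup.mul_mem _ (hPN (hQP hx)) hxn
  apply Lib.Helper40.hasNormalPComplement_of_coprime_of_isPGroup L (hcL ▸ hKbc)
  obtain ⟨b, hb⟩ := IsPGroup.iff_card.1 hKbp
  apply IsPGroup.of_card (n := a + b)
  rw [← Subgroup.index_eq_card, ← Subgroup.relIndex_mul_index hLK]
  have e1 : K.index = p ^ b := by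
    rw [hK, Subgroup.index_comap_of_surjective _ (QuotientGroup.mk'_surjective Q),
      Subgroup.index_eq_card, hb]
  have e2 : L.relIndex K = p ^ a := by
    have h1 := card_mul_relIndex hLK
    have h2 := card_mul_relIndex hQK
    rw [hrel, ← hcL, ha] at h2
    have h3 : 0 < Nat.card L := Nat.card_pos
    apply Nat.eq_of_mul_eq_mul_left h3
    rw [h1, ← h2, mul_comm]
  rw [e1, e2, pow_add]

end Cfsg.Agent.Lib.Helper67
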