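import Mathlib
import Cfsg.Agent.Lib.Helper99.SPU.Defs
import Cfsg.Agent.Lib.Helper99.PGB.Defs
import Cfsg.Agent.Lib.Helper75.SPUPERP

set_option autoImplicit false

universe u

namespace Cfsg.Agent.Lib.Helper67.SPU

open Module LinearMap QuadraticMap Cfsg.Agent.Lib.Helper48 Cfsg.Agent.Lib.Helper17
  Cfsg.Agent.Lib.Helper99.SP8 Cfsg.Agent.Lib.Helper99.PGB Cfsg.Agent.Lib.Helper99.SPU

theorem dick_polar_self {F V : Type*} [Field F] [CharP F 2] [AddCommGroup V] [Module F V]
    (Q : QuadraticForm F V) (x : V) : QuadraticMap.polar Q x x = 0 := by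
  have h2 : (2 : F) = 0 := CharTwo.two_eq_zero
  rw [QuadraticMap.polar_self, two_smul, ← two_mul, h2, zero_mul]

theorem dick_isoB {F V : Type*} [Field F] [AddCommGroup V] [Module F V]
    (Q : QuadraticForm F V) (T : End F V) (hT : ∀ v, Q (T v) = Q v) : IsoB Q.polarBilin T := by
  intro x y
  rw [QuadraticMap.polarBilin_apply_apply, QuadraticMap.polarBilin_apply_apply,
    QuadraticMap.polar, QuadraticMap.polar, ← map_add, hT, hT, hT]

theorem dick_wall1 {F V : Type*} [Field F] [CharP F 2] [AddCommGroup V] [Module F V]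
    (Q : QuadraticForm F V) (T : End F V) (hT : ∀ v, Q (T v) = Q v) (x : V) :
    Q.polarBilin x ((T - 1) x) = Q ((T - 1) x) := by
  rw [QuadraticMap.polarBilin_apply_apply, QuadraticMap.polar, LinearMap.sub_apply,
    Module.End.one_apply, add_sub_cancel, hT, sub_self, zero_sub, CharTwo.neg_eq]

/-- DICK, with WALL (for this space) as a hypothesis -/
theorem dickson_of_wall {F V : Type*} [Field F] [CharP F 2] [AddCommGroup V] [Module F V]
    [FiniteDimensional F V]
    (hwall : ∀ (B : LinearMap.BilinForm F V) (_ : ∀ v, B v v = 0)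
      (_ : ∀ x, (∀ y, B x y = 0) → x = 0)
      (Q : V → F) (a b : End F V) (_ : ∀ x, B x (a x) = Q (a x)) (_ : ∀ x, B x (b x) = Q (b x))
      (_ : ∀ y, y ∈ range a ↔ ∀ x, a x = 0 → B x y = 0)
      (_ : ∀ y, y ∈ range b ↔ ∀ x, b x = 0 → B x y = 0),
      Even (finrank F (ker (a - b)) + finrank F (ker a) + finrank F (ker b)))
    (Q : QuadraticForm F V) (hnd : ∀ x, (∀ y, QuadraticMap.polar Q x y = 0) → x = 0)
    (g h : (End F V)ˣ) (hg : ∀ v, Q ((g : End F V) v) = Q v) (hh : ∀ v, Q ((h : End F V) v) = Q v) :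
    Even (finrank F (ker (((g * h : (End F V)ˣ) : End F V) - 1)) +
      finrank F (ker ((g : End F V) - 1)) + finrank F (ker ((h : End F V) - 1))) := by
  have hgi : ∀ v, (g : End F V) (((g⁻¹ : (End F V)ˣ) : End F V) v) = v := by
    intro v
    rw [← Module.End.mul_apply, Units.mul_inv, Module.End.one_apply]
  have hgi' : ∀ v, ((g⁻¹ : (End F V)ˣ) : End F V) ((g : End F V) v) = v := by
    intro v
    rw [← Module.End.mul_apply, Units.inv_mul, Module.End.one_apply]
  have hg' : ∀ v, Q (((g⁻¹ : (End F V)ˣ) : End F V) v) = Q v := by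
    intro v
    rw [← hg, hgi]
  have halt : ∀ v, Q.polarBilin v v = 0 := fun v => dick_polar_self Q v
  have hnd' : ∀ x, (∀ y, Q.polarBilin x y = 0) → x = 0 := fun x hx => hnd x hx
  have key := hwall Q.polarBilin halt hnd' Q ((h : End F V) - 1)
    (((g⁻¹ : (End F V)ˣ) : End F V) - 1) (dick_wall1 Q _ hh) (dick_wall1 Q _ hg')
    (Cfsg.Agent.Lib.Helper75.SPU.range_iff_perp _ halt hnd' _ (dick_isoB Q _ hh))
    (Cfsg.Agent.Lib.Helper75.SPU.range_iff_perp _ halt hnd' _ (dick_isoB Q _ hg'))
  have h1 : ker ((h : End F V) - 1 - ((((g⁻¹ : (End F V)ˣ) : End F V)) - 1)) =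
      ker (((g * h : (End F V)ˣ) : End F V) - 1) := by
    ext v
    simp only [mem_ker, LinearMap.sub_apply, Module.End.one_apply, Units.val_mul,
      Module.End.mul_apply, sub_sub_sub_cancel_right, sub_eq_zero]
    constructor
    · intro hv
      rw [hv, hgi]
    · intro hv
      rw [← hgi' ((h : End F V) v), hv]
  have h2 : ker ((((g⁻¹ : (End F V)ˣ) : End F V)) - 1) = ker ((g : End F V) - 1) := by
    ext v
    simp only [mem_ker, LinearMap.sub_apply, Module.End.one_apply, sub_eq_zero]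
    constructor
    · intro hv
      conv_lhs => rw [← hv]
      exact hgi v
    · intro hv
      conv_lhs => rw [← hv]
      exact hgi' v
  rw [h1, h2] at key
  rw [add_assoc, add_comm (finrank F (ker ((g : End F V) - 1))), ← add_assoc]
  exact key

end Cfsg.Agent.Lib.Helper67.SPU
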